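import Cfsg.Agent.H16.Sharp
import Cfsg.Agent.S0708

/-! Jordan's theorem on the degrees of sharply multiply transitive groups. -/

set_option autoImplicit false

namespace Cfsg.Agent.H16

open MulAction

theorem mod_dvd_of_self_centralizing {G : Type*} [Group G] [Finite G] {p m : ℕ} (hp : p.Prime)
    (hG : Nat.card G = p * m) (P : Sylow p G) (hP : Nat.card P = p)
    (hC : Subgroup.centralizer ((P : Subgroup G) : Set G) = P) :
    m % p ∣ p - 1 ∧ Nat.card (Subgroup.normalizer ((P : Subgroup G) : Set G)) = p * (m % p) := by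
  have := Fact.mk hp
  have : IsCyclic P := isCyclic_of_prime_card hP
  have key := Subgroup.card_dvd_of_injective _
    (QuotientGroup.kerLift_injective (P : Subgroup G).normalizerMonoidHom)
  rw [Subgroup.normalizerMonoidHom_ker, ← Subgroup.index, hC, IsCyclic.card_mulAut, hP,
    Nat.totient_prime hp] at key
  have h1 := ((P : Subgroup G).subgroupOf
    (Subgroup.normalizer ((P : Subgroup G) : Set G))).card_mul_index
  rw [Nat.card_congr (Subgroup.subgroupOfEquivOfLe Subgroup.le_normalizer).toEquiv, hP] at h1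
  set r := ((P : Subgroup G).subgroupOf (Subgroup.normalizer ((P : Subgroup G) : Set G))).index
  have h2 := (Subgroup.normalizer ((P : Subgroup G) : Set G)).card_mul_index
  have h3 := card_sylow_modEq_one p G
  rw [P.card_eq_index_normalizer] at h3
  have e : (P : Set G) = ((P : Subgroup G) : Set G) := rfl
  rw [e] at h3
  set n := (Subgroup.normalizer ((P : Subgroup G) : Set G)).index
  rw [← h1, hG, mul_assoc] at h2
  have h4 : r * n = m := Nat.eq_of_mul_eq_mul_left hp.pos h2
  have h5 : r < p := lt_of_le_of_lt (Nat.le_of_dvd (by have := hp.two_le; omega) key)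
    (by have := hp.pos; omega)
  have h6 : m ≡ r [MOD p] := by
    rw [← h4]
    simpa using (Nat.ModEq.refl r).mul h3
  rw [← h1, h6, Nat.mod_eq_of_lt h5]
  exact ⟨key, rfl⟩

variable {G α : Type*} [Group G] [MulAction G α]

theorem eq_one_of_fixes {k : ℕ} (hsharp : ∀ x : Fin k ↪ α, stabilizer G x = ⊥) (s : Set α)
    (hs : k ≤ s.ncard) [Finite α] (g : G) (hg : ∀ a ∈ s, g • a = a) : g = 1 := by
  classical
  have := Fintype.ofFinite s
  obtain ⟨x⟩ : Nonempty (Fin k ↪ s) := nonempty_emb (by rwa [← Nat.card_eq_fintype_card])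
  have : g ∈ stabilizer G (x.trans (Function.Embedding.subtype _)) :=
    Function.Embedding.ext fun i => hg _ (x i).2
  rwa [hsharp, Subgroup.mem_bot] at this

theorem sharp_mod_dvd [Finite α] [Finite G] {k p m : ℕ}
    (hsharp : ∀ x : Fin k ↪ α, stabilizer G x = ⊥) (hkα : k ≤ Nat.card α) (hp : p.Prime)
    (hG : Nat.card G = p * m) (hpm : ¬ p ∣ m) (hk : k ≤ p) (hα : Nat.card α < 2 * p) :
    m % p ∣ p - 1 := by
  have := Fact.mk hp
  have hm0 : m ≠ 0 := by rintro rfl; exact hpm (dvd_zero _)
  have hfac : (Nat.card G).factorization p = 1 := by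
    rw [hG, Nat.factorization_mul hp.ne_zero hm0, Finsupp.add_apply, hp.factorization_self,
      Nat.factorization_eq_zero_of_not_dvd hpm]
  obtain ⟨P⟩ : Nonempty (Sylow p G) := inferInstance
  have hP : Nat.card P = p := by rw [P.card_eq_multiplicity, hfac, pow_one]
  have : IsCyclic P := isCyclic_of_prime_card hP
  refine (mod_dvd_of_self_centralizing hp hG P hP ?_).1
  have hle : (P : Subgroup G) ≤ Subgroup.centralizer ((P : Subgroup G) : Set G) :=
    Subgroup.le_centralizer _
  obtain ⟨x, hx, hx1⟩ : ∃ x ∈ (P : Subgroup G), x ≠ 1 := by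
    by_contra h
    push Not at h
    have : (P : Subgroup G) = ⊥ := eq_bot_iff.2 fun g hg => h g hg
    rw [this, Subgroup.card_bot] at hP
    exact hp.one_lt.ne hP
  obtain ⟨a, ha⟩ : ∃ a : α, x • a ≠ a := by
    by_contra h
    push Not at h
    exact hx1 (eq_one_of_fixes hsharp Set.univ (by rwa [Set.ncard_univ]) x fun a _ => h a)
  have h1 := index_stabilizer (P : Subgroup G) a
  have h2 := (stabilizer (P : Subgroup G) a).index_dvd_card
  rw [hP] at h2
  have h3 : (orbit (P : Subgroup G) a).ncard = p := by
    rcases (Nat.dvd_prime hp).1 h2 with h | h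
    · rw [Subgroup.index_eq_one] at h
      have : (⟨x, hx⟩ : (P : Subgroup G)) ∈ stabilizer (P : Subgroup G) a :=
        h ▸ Subgroup.mem_top _
      exact absurd this ha
    · rw [← h1, h]
  have h4 : Nat.card (Subgroup.centralizer ((P : Subgroup G) : Set G)) ≤ Nat.card α := by
    apply Nat.card_le_card_of_injective
      (fun c : Subgroup.centralizer ((P : Subgroup G) : Set G) => (c : G) • a)
    intro c d h
    apply Subtype.ext
    rw [← inv_mul_eq_one]
    refine eq_one_of_fixes hsharp (orbit (P : Subgroup G) a) (by omega) _ ?_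
    rintro _ ⟨g, rfl⟩
    have h1 := c.2 g g.2
    have h2 := d.2 g g.2
    simp only at h ⊢
    rw [mul_smul, inv_smul_eq_iff, Subgroup.smul_def, ← mul_smul, ← h2, ← mul_smul, ← h1,
      mul_smul, mul_smul, h]
  obtain ⟨c, hc⟩ := Subgroup.card_dvd_of_le hle
  have hpos : 0 < Nat.card (Subgroup.centralizer ((P : Subgroup G) : Set G)) := Nat.card_pos
  symm
  apply Subgroup.eq_of_le_of_card_ge hle
  rw [hP] at hc ⊢
  rw [hc] at h4 hpos ⊢
  have : c < 2 := by
    by_contra h
    have : p * 2 ≤ p * c := Nat.mul_le_mul_left _ (by omega)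
    omega
  interval_cases c <;> omega

theorem sharp_ofStabilizer {k : ℕ} (hsharp : ∀ x : Fin (k + 1) ↪ α, stabilizer G x = ⊥) (a : α)
    (x : Fin k ↪ SubMulAction.ofStabilizer G a) : stabilizer (stabilizer G a) x = ⊥ := by
  rw [eq_bot_iff]
  intro g hg
  have : (g : G) ∈ stabilizer G (SubMulAction.ofStabilizer.snoc x) := by
    rw [mem_stabilizer_iff]
    ext i
    rcases Fin.eq_castSucc_or_eq_last i with ⟨i, rfl⟩ | rfl
    · rw [Function.Embedding.smul_apply, SubMulAction.ofStabilizer.snoc_castSucc]
      exact congrArg Subtype.val (DFunLike.congr_fun hg i)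
    · rw [Function.Embedding.smul_apply, SubMulAction.ofStabilizer.snoc_last]
      exact g.2
  rw [hsharp] at this
  exact Subtype.ext this

theorem jordan_four [Finite α] (h4 : 4 ≤ Nat.card α) [h : IsMultiplyPretransitive G α 4]
    (hsharp : ∀ x : Fin 4 ↪ α, stabilizer G x = ⊥) :
    Nat.card α = 4 ∨ Nat.card α = 5 ∨ Nat.card α = 6 ∨ Nat.card α = 11 := by
  have := Fintype.ofFinite α
  have hc := card_of_sharp (G := G) (by rwa [← Nat.card_eq_fintype_card]) hsharp
  rw [← Nat.card_eq_fintype_card] at hc
  obtain ⟨-, h1, h2⟩ := S0708.result h hsharp (nonempty_emb (by rwa [← Nat.card_eq_fintype_card]))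
  rw [Nat.even_iff] at h2
  have h7 : Nat.card α ≠ 7 := fun h7 => by
    rw [h7] at hc
    have : Finite G := Nat.finite_of_card_ne_zero (by rw [hc]; decide)
    have := sharp_mod_dvd (p := 5) (m := 168) hsharp h4 (by norm_num) hc (by norm_num)
      (by norm_num) (by omega)
    norm_num at this
  have h9 : Nat.card α ≠ 9 := fun h9 => by
    rw [h9] at hc
    have : Finite G := Nat.finite_of_card_ne_zero (by rw [hc]; decide)
    have := sharp_mod_dvd (p := 7) (m := 432) hsharp h4 (by norm_num) hc (by norm_num)
      (by norm_num) (by omega)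
    norm_num at this
  omega

theorem jordan_five [Finite α] (h5 : 5 ≤ Nat.card α) [h : IsMultiplyPretransitive G α 5]
    (hsharp : ∀ x : Fin 5 ↪ α, stabilizer G x = ⊥) :
    Nat.card α = 5 ∨ Nat.card α = 6 ∨ Nat.card α = 7 ∨ Nat.card α = 12 := by
  obtain ⟨a⟩ : Nonempty α := (Nat.card_ne_zero.1 (by omega)).1
  have : IsPretransitive G α :=
    is_one_pretransitive_iff.1 (isMultiplyPretransitive_of_le (n := 5) (by norm_num) h5)
  have := (SubMulAction.ofStabilizer.isMultiplyPretransitive (a := a)).1 h
  have h1 := card_ofStabilizer (G := G) a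
  have := jordan_four (G := stabilizer G a) (α := SubMulAction.ofStabilizer G a) (by omega)
    (sharp_ofStabilizer hsharp a)
  omega

universe u v in
theorem jordan_large (k : ℕ) : ∀ {G : Type u} {α : Type v} [Group G] [MulAction G α] [Finite α],
    k + 6 ≤ Nat.card α → IsMultiplyPretransitive G α (k + 6) →
    (∀ x : Fin (k + 6) ↪ α, stabilizer G x = ⊥) →
    Nat.card α = k + 6 ∨ Nat.card α = k + 7 ∨ Nat.card α = k + 8 := by
  induction k with
  | zero =>
    intro G α _ _ _ h5 h hsharp
    obtain ⟨a⟩ : Nonempty α := (Nat.card_ne_zero.1 (by omega)).1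
    have : IsPretransitive G α :=
      is_one_pretransitive_iff.1 (isMultiplyPretransitive_of_le (n := 0 + 6) (by norm_num) h5)
    have := (SubMulAction.ofStabilizer.isMultiplyPretransitive (a := a)).1 h
    have h1 := card_ofStabilizer (G := G) a
    have := jordan_five (G := stabilizer G a) (α := SubMulAction.ofStabilizer G a) (by omega)
      (sharp_ofStabilizer hsharp a)
    have h13 : Nat.card α ≠ 13 := fun h13 => by
      have := Fintype.ofFinite α
      have hc := card_of_sharp (G := G) (by rwa [← Nat.card_eq_fintype_card]) hsharp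
      rw [← Nat.card_eq_fintype_card, h13] at hc
      have : Finite G := Nat.finite_of_card_ne_zero (by rw [hc]; decide)
      have := sharp_mod_dvd (p := 13) (m := 95040) hsharp h5 (by norm_num) hc (by norm_num)
        (by norm_num) (by omega)
      norm_num at this
    omega
  | succ k ih =>
    intro G α _ _ _ h5 h hsharp
    obtain ⟨a⟩ : Nonempty α := (Nat.card_ne_zero.1 (by omega)).1
    have : IsPretransitive G α :=
      is_one_pretransitive_iff.1 (isMultiplyPretransitive_of_le (n := k + 1 + 6) (by omega) h5)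
    have h2 := (SubMulAction.ofStabilizer.isMultiplyPretransitive (a := a) (n := k + 6)).1 h
    have h1 := card_ofStabilizer (G := G) a
    have := ih (G := stabilizer G a) (α := SubMulAction.ofStabilizer G a) (by omega) h2
      (sharp_ofStabilizer (k := k + 6) hsharp a)
    omega

end Cfsg.Agent.H16
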