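import Cfsg.Agent.H16.WittExt
import Cfsg.Agent.H14.M24
import Cfsg.Agent.S0378
import Cfsg.Agent.S0379
import Cfsg.Prelude.Def_Sporadic

/-! The automorphism group of S(3,6,22). -/

set_option autoImplicit false

namespace Cfsg.Agent.H16

open Finset
open scoped Pointwise

theorem WittEmb.smul {α : Type*} [DecidableEq α] {B : Set (Finset α)} {f : α ↪ GolayPt}
    {S : Finset GolayPt} (h : WittEmb B f S) {g : Equiv.Perm GolayPt} (hg : g ∈ M24) :
    WittEmb B (f.trans g.toEmbedding) (S.map g.toEmbedding) where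
  range p := by
    rw [mem_map_equiv, ← h.range]
    constructor
    · rintro ⟨a, rfl⟩
      exact ⟨a, by simp⟩
    · rintro ⟨a, ha⟩
      exact ⟨a, by simp [ha]⟩
  block b := by rw [← map_map, ← map_union, M24_octad.1 hg, h.block]
  ext σ hσ := by
    obtain ⟨k, hk, hk'⟩ := h.ext σ hσ
    exact ⟨g * k * g⁻¹, M24.mul_mem (M24.mul_mem hg hk) (M24.inv_mem hg), fun a => by simp [hk']⟩

variable {α : Type*} [Fintype α] [DecidableEq α]

theorem witt22' (hα : Fintype.card α = 22) {B : Set (Finset α)} (hB : IsSteinerSystem 3 6 B) :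
    ∃ f : α ↪ GolayPt, WittEmb B f {none, some 0} := by
  obtain ⟨f, p, q, hpq, h⟩ := witt22 hα hB
  obtain ⟨g, h1, h2⟩ := MulAction.is_two_pretransitive_iff.1
    (@MulAction.isMultiplyPretransitive_of_le _ _ _ _ 2 5 S0366.result (by norm_num) (by simp) _)
    hpq (show (none : GolayPt) ≠ some 0 by simp)
  have := h.smul g.2
  rw [map_insert, map_singleton] at this
  exact ⟨_, by rw [← h1, ← h2]; exact this⟩

theorem card_aut22 (hα : Fintype.card α = 22) {B : Set (Finset α)} (hB : IsSteinerSystem 3 6 B) :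
    Nat.card (setSystemAut B) = 887040 := by
  obtain ⟨f, h⟩ := witt22' hα hB
  have := h.card_aut (by simp)
  rw [card_pair (by simp)] at this
  simp only [Nat.choose] at this
  omega

theorem exists_M22_aut (hα : Fintype.card α = 22) {B : Set (Finset α)}
    (hB : IsSteinerSystem 3 6 B) : ∃ H : Subgroup (setSystemAut B), H.index = 2 ∧ IsM22 H ∧
      MulAction.IsMultiplyPretransitive H α 3 := by
  obtain ⟨f, h⟩ := witt22' hα hB
  obtain ⟨ρ, hρ⟩ := h.exists_mulEquiv (by simp)
  let K := MulAction.stabilizer M24 (none : GolayPt) ⊓ MulAction.stabilizer M24 (some 0 : GolayPt)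
  have hK : K ≤ MulAction.stabilizer M24 ({none, some 0} : Finset GolayPt) := by
    rintro g ⟨h1, h2⟩
    rw [MulAction.mem_stabilizer_iff, smul_finset_insert, smul_finset_singleton, h1, h2]
  let φ : K →* setSystemAut B := ρ.toMonoidHom.comp (Subgroup.inclusion hK)
  have hφ : Function.Injective φ := ρ.injective.comp (Subgroup.inclusion_injective hK)
  have e := MonoidHom.ofInjective hφ
  have hc : Nat.card φ.range = 443520 := by
    rw [← Nat.card_congr e.toEquiv]; exact S0378.result _ _ (by simp)
  have hs : IsSimpleGroup K := S0379.result _ _ (by simp)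
  refine ⟨φ.range, ?_, ⟨e.symm.isSimpleGroup, hc⟩, ⟨fun x y => ?_⟩⟩
  · have := φ.range.card_mul_index
    rw [hc, card_aut22 hα hB] at this
    omega
  · let c : Bool → GolayPt := fun b => if b then none else some 0
    have hc : ∀ b, c b ∉ Set.range f := fun b => by
      rw [h.range]; cases b <;> simp [c]
    have hci : Function.Injective c := by decide
    have hinj : ∀ z : Fin 3 ↪ α, Function.Injective (Sum.elim (fun i => f (z i)) c) := by
      rintro z (i | s) (j | t) hij
      · exact congrArg _ (z.injective (f.injective hij))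
      · exact absurd ⟨_, hij⟩ (hc t)
      · exact absurd ⟨_, hij.symm⟩ (hc s)
      · exact congrArg _ (hci hij)
    obtain ⟨g, hg⟩ := exists_smul_emb S0366.result (by simp) (by simp) ⟨_, hinj x⟩ ⟨_, hinj y⟩
    refine ⟨⟨φ ⟨g, hg (Sum.inr true), hg (Sum.inr false)⟩, _, rfl⟩, ?_⟩
    ext i
    apply f.injective
    exact (hρ _ _).trans (hg (Sum.inl i))

theorem projInv_fixed_octads : {s | s ∈ H14.CSets ∧ (s.card = 8 ∧ none ∈ s ∧ some 0 ∈ s ∧
    projInv • s = s)}.ncard = 5 := by
  rw [H14.ncard_cSets_filter _ (fun x => H14.force (H14.enc x) fun m => Nat.beq (H14.pc m) 8 &&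
    m.testBit 23 && m.testBit 0 && Nat.beq (H14.img (nat_lit 5) (nat_lit 32) (nat_lit 24)
      0x5883388a1c8f5140b46cd317aed7 m) m)]
  · decide +kernel
  · intro x hx
    rw [H14.force_eq, H14.card_bits, H14.mem_bits, H14.mem_bits, H14.smul_bits, H14.pk_projInv]
    simp only [Bool.and_eq_true, H14.beq_iff, and_assoc]
    refine and_congr Iff.rfl (and_congr Iff.rfl (and_congr Iff.rfl ⟨fun h => by rw [h], fun h => ?_⟩))
    refine H14.bits_inj ?_ (H14.enc_lt hx) h
    rw [← H14.pk_projInv]
    exact H14.GE.img_pk_lt _ _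

theorem exists_odd_involution22 (hα : Fintype.card α = 22) {B : Set (Finset α)}
    (hB : IsSteinerSystem 3 6 B) : ∃ σ ∈ setSystemAut B, σ * σ = 1 ∧ (∀ a, σ a ≠ a) ∧
      {b | b ∈ B ∧ b.map σ.toEmbedding = b}.ncard = 5 := by
  obtain ⟨f, h⟩ := witt22' hα hB
  have hS : ({none, some 0} : Finset GolayPt).map projInv.toEmbedding = {none, some 0} := by
    decide
  obtain ⟨σ, h1, h2⟩ := h.exists_equiv h H14.projInv_mem hS
  have h3 : ∀ p, projInv (projInv p) = p := by decide
  have h4 : ∀ p, projInv p ≠ p := by decide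
  have hdisj : ∀ b : Finset α, Disjoint (b.map f) {none, some 0} := fun b => by
    rw [disjoint_left]
    intro p hp
    obtain ⟨a, -, rfl⟩ := mem_map.1 hp
    exact (h.range _).1 ⟨a, rfl⟩
  have hinj : ∀ b c : Finset α, b.map f ∪ {none, some 0} = c.map f ∪ {none, some 0} → b = c :=
    fun b c hbc => map_injective f (by
      rw [← union_sdiff_cancel_right (hdisj b), hbc, union_sdiff_cancel_right (hdisj c)])
  have hmap : ∀ b : Finset α, projInv • (b.map f ∪ {none, some 0}) =
      (b.map σ.toEmbedding).map f ∪ {none, some 0} := fun b => by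
    rw [smul_finset_eq_map, map_union, hS, map_map, map_map]
    have : σ.toEmbedding.trans f = f.trans projInv.toEmbedding := Function.Embedding.ext h1
    rw [this]
  refine ⟨σ, mem_setSystemAut_iff.2 h2, ?_, fun a ha => ?_, ?_⟩
  · ext a
    apply f.injective
    rw [Equiv.Perm.mul_apply, h1, h1, h3]; rfl
  · exact h4 (f a) (by rw [← h1, ha])
  · rw [← projInv_fixed_octads]
    apply Set.ncard_congr (fun b _ => b.map f ∪ {none, some 0})
    · rintro b ⟨hb, hb'⟩
      have := (h.block b).2 hb
      exact ⟨this.1, this.2, by simp, by simp, by rw [hmap, hb']⟩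
    · intro b c _ _ hbc
      exact hinj b c hbc
    · rintro s ⟨hs1, hs2, hs3, hs4, hs5⟩
      have : (univ.filter fun a => f a ∈ s).map f ∪ {none, some 0} = s := by
        ext p
        simp only [mem_union, mem_map, mem_filter, mem_univ, true_and]
        constructor
        · rintro (⟨a, ha, rfl⟩ | hp)
          · exact ha
          · simp only [mem_insert, mem_singleton] at hp
            rcases hp with rfl | rfl <;> assumption
        · intro hp
          by_cases hp' : p ∈ ({none, some 0} : Finset GolayPt)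
          · exact Or.inr hp'
          · obtain ⟨a, rfl⟩ := (h.range p).2 hp'
            exact Or.inl ⟨a, hp, rfl⟩
      refine ⟨_, ⟨(h.block _).1 (by rw [this]; exact ⟨hs1, hs2⟩), hinj _ _ ?_⟩, this⟩
      rw [← hmap, this, hs5]

end Cfsg.Agent.H16
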