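import Cfsg.Agent.H36.More
import Cfsg.Agent.H14.MClasses

/-! Simplicity of a group with a self-centralising Sylow subgroup of prime order, and the numbers of elements of
given order in the Mathieu groups. -/

set_option autoImplicit false
set_option linter.unusedSectionVars false

namespace Cfsg.Agent.H16

open Cfsg Subgroup

section
variable {G : Type*} [Group G] [Finite G] {p : ℕ} [hp : Fact p.Prime]

theorem card_mod_of_fpf {Q : Subgroup G} {x : G} (hx : x ^ p = 1)
    (hn : x ∈ normalizer (Q : Set G)) (hf : ∀ u ∈ Q, Commute x u → u = 1) :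
    Nat.card Q % p = 1 := by
  let φ : zpowers x →* MulAut Q := Q.normalizerMonoidHom.comp (inclusion (zpowers_le.2 hn))
  letI : MulAction (zpowers x) Q := MulAction.compHom Q φ
  have h := (H36.isPGroup_zpowers (p := p) (k := 1) (by rwa [pow_one])).card_modEq_card_fixedPoints Q
  have h1 : MulAction.fixedPoints (zpowers x) Q = {1} := by
    ext u
    refine ⟨fun hu => Subtype.ext (hf u u.2 ?_), ?_⟩
    · have := congrArg Subtype.val (hu ⟨x, mem_zpowers x⟩)
      exact mul_inv_eq_iff_eq_mul.1 this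
    · rintro rfl g
      exact map_one (φ g)
  rw [h1, Nat.card_unique (α := ({1} : Set Q))] at h
  rw [h, Nat.mod_eq_of_lt hp.out.one_lt]

theorem eq_bot_of_isolated (hiso : ∀ g : G, p ∣ orderOf g → orderOf g = p)
    (hq : ∀ q a : ℕ, q.Prime → 0 < a → q ^ a ∣ Nat.card G → q ^ a % p ≠ 1)
    (hG : p ∣ Nat.card G) (N : Subgroup G) [N.Normal] (hN : ¬ p ∣ Nat.card N) : N = ⊥ := by
  by_contra hb
  obtain ⟨q, hq1, hq2⟩ := Nat.exists_prime_and_dvd (mt card_eq_one.1 hb)
  haveI := Fact.mk hq1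
  obtain ⟨Q⟩ := (inferInstance : Nonempty (Sylow q N))
  have h1 := Sylow.normalizer_sup_eq_top Q
  set R := (Q : Subgroup N).map N.subtype with hR
  have h2 : p ∣ Nat.card (normalizer (R : Set G)) := by
    have h3 : (normalizer (R : Set G)).map (QuotientGroup.mk' N) = ⊤ := by
      rw [← comap_injective (QuotientGroup.mk'_surjective N) |>.eq_iff, comap_map_eq,
        QuotientGroup.ker_mk', h1, comap_top]
    have h4 := card_map_dvd (normalizer (R : Set G)) (QuotientGroup.mk' N)
    rw [h3, card_top] at h4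
    rw [card_eq_card_quotient_mul_card_subgroup N] at hG
    exact ((hp.out.dvd_mul.1 hG).resolve_right hN).trans h4
  obtain ⟨x, hx, ho⟩ := H36.exists_orderOf_eq_of_dvd _ hp.out h2
  have hRc : Nat.card R = q ^ (Nat.card N).factorization q := by
    rw [hR, card_map_of_injective N.subtype_injective, Q.card_eq_multiplicity]
  refine hq q _ hq1 (hq1.factorization_pos_of_dvd Nat.card_pos.ne' hq2)
    (hRc ▸ R.card_subgroup_dvd_card) ?_
  rw [← hRc]
  refine card_mod_of_fpf (ho ▸ pow_orderOf_eq_one x) hx fun u hu hc => ?_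
  have h5 : ¬ p ∣ orderOf u := fun h =>
    hN (h.trans (N.orderOf_dvd_natCard (map_subtype_le _ hu)))
  have h6 := hc.orderOf_mul_eq_mul_orderOf_of_coprime
    (by rw [ho]; exact (Nat.Prime.coprime_iff_not_dvd hp.out).mpr h5)
  rw [hiso _ (by rw [h6, ho]; exact Dvd.intro _ rfl), ho] at h6
  exact orderOf_eq_one_iff.mp
    (Nat.eq_of_mul_eq_mul_left hp.out.pos (h6.symm.trans (mul_one p).symm))

theorem simple_of_isolated {m e : ℕ} (hG : Nat.card G = p * m) (hm : ¬ p ∣ m)
    (hiso : ∀ g : G, p ∣ orderOf g → orderOf g = p)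
    (hq : ∀ q a : ℕ, q.Prime → 0 < a → q ^ a ∣ Nat.card G → q ^ a % p ≠ 1) (he : e.Prime)
    (hn : Nat.card (Sylow p G) * e = m) (hme : m ≠ e) : IsSimpleGroup G := by
  haveI : Nontrivial G := by
    rw [← Finite.one_lt_card_iff_nontrivial, hG]
    have := hp.out.two_le
    have : m ≠ 0 := by rintro rfl; exact hm (dvd_zero _)
    nlinarith [Nat.pos_of_ne_zero this]
  refine ⟨fun N hN => ?_⟩
  by_cases hd : p ∣ Nat.card N
  swap
  · exact Or.inl (eq_bot_of_isolated hiso hq (hG ▸ Dvd.intro _ rfl) N hd)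
  right
  obtain ⟨x, hxN, hx⟩ := H36.exists_orderOf_eq_of_dvd _ hp.out hd
  obtain ⟨P0⟩ := (inferInstance : Nonempty (Sylow p G))
  obtain ⟨P, hP⟩ := H36.exists_sylow_eq_zpowers P0 (H36.card_sylow_eq_prime P0 hG hm) hx
  have hPc := H36.card_sylow_eq_prime P hG hm
  have hPN : (P : Subgroup G) ≤ N := hP ▸ zpowers_le.2 hxN
  set M := normalizer ((P : Subgroup G) : Set G) with hM
  have hNc : Nat.card M = p * e := by
    have := H36.card_sylow_mul_card_normalizer P
    rw [hG, ← hn, mul_left_comm] at this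
    exact Nat.eq_of_mul_eq_mul_left Nat.card_pos this
  have hle1 : (P : Subgroup G) ≤ M ⊓ N := le_inf le_normalizer hPN
  obtain ⟨k, hk⟩ := card_dvd_of_le hle1
  have hd' := card_dvd_of_le (inf_le_left : M ⊓ N ≤ M)
  rw [hNc, hk, hPc] at hd'
  rcases (Nat.dvd_prime he).1 (Nat.dvd_of_mul_dvd_mul_left hp.out.pos hd') with h | h
  · exfalso
    have hMN : M ⊓ N = P := (eq_of_le_of_card_ge hle1 (by rw [hk, h, mul_one])).symm
    let Q : Sylow p N := P.subtype hPN
    have hQ : normalizer (Q : Set N) ≤ centralizer (Q : Set N) := by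
      intro g hg y hy
      have hg' : (g : G) ∈ M ⊓ N := by
        refine mem_inf.2 ⟨?_, g.2⟩
        rw [hM, mem_normalizer_iff]
        intro z
        constructor
        · intro hz
          exact (hg ⟨z, hPN hz⟩).1 hz
        · intro hz
          have hzN : z ∈ N := by
            have := hN.conj_mem _ (hPN hz) (g : G)⁻¹
            simpa [mul_assoc] using this
          exact (hg ⟨z, hzN⟩).2 hz
      rw [hMN] at hg'
      exact Subtype.ext (H36.mul_comm_of_card_prime hPc _ hy _ hg')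
    have hKb : (MonoidHom.transferSylow Q hQ).ker = ⊥ :=
      eq_bot_of_isolated (fun g hg => by rw [← orderOf_coe] at hg ⊢; exact hiso _ hg)
        (fun q a h1 h2 h3 => hq q a h1 h2 (h3.trans N.card_subgroup_dvd_card)) hd _
        (MonoidHom.not_dvd_card_ker_transferSylow Q hQ)
    have hcomp := MonoidHom.ker_transferSylow_isComplement' Q hQ
    rw [hKb, isComplement'_bot_left] at hcomp
    have hNP : N ≤ P := by
      intro g hg
      have : (⟨g, hg⟩ : N) ∈ (Q : Subgroup N) := hcomp ▸ mem_top _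
      exact this
    have : M = ⊤ := by
      rw [hM, le_antisymm hPN hNP]; exact normalizer_eq_top N
    rw [this, card_top, hG] at hNc
    exact hme (Nat.eq_of_mul_eq_mul_left hp.out.pos hNc)
  · have hMN : M ⊓ N = M := eq_of_le_of_card_ge inf_le_left (by rw [hk, h, hNc, hPc])
    rw [← Sylow.normalizer_sup_eq_top' P hPN]
    exact (sup_eq_right.2 (hMN.ge.trans inf_le_right)).symm

theorem isolated_of_count {m e : ℕ} (hG : Nat.card G = p * m) (hm : ¬ p ∣ m) (he : e.Prime)
    (hn : Nat.card (Sylow p G) * e = m)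
    (hc : Nat.card {g : G // orderOf g = p * e} < Nat.card (Sylow p G) * (p - 1) * (e - 1)) :
    ∀ g : G, p ∣ orderOf g → orderOf g = p := by
  obtain ⟨P0⟩ := (inferInstance : Nonempty (Sylow p G))
  have hNc : ∀ P : Sylow p G, Nat.card (normalizer (P : Set G)) = p * e := fun P => by
    have := H36.card_sylow_mul_card_normalizer P
    rw [hG, ← hn, mul_left_comm] at this
    exact Nat.eq_of_mul_eq_mul_left Nat.card_pos this
  have key : ∀ g : G, p ∣ orderOf g → ∃ P : Sylow p G, g ∈ centralizer (P : Set G) ∧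
      (orderOf g = p ∨ orderOf g = p * e) := by
    intro g hg
    have h1 := orderOf_pow_orderOf_div (orderOf_pos g).ne' hg
    obtain ⟨P, hP⟩ := H36.exists_sylow_eq_zpowers P0 (H36.card_sylow_eq_prime P0 hG hm) h1
    have h2 : g ∈ centralizer (P : Set G) := by
      rw [show (P : Set G) = ((P : Subgroup G) : Set G) from rfl, ← hP, H36.centralizer_zpowers,
        mem_centralizer_singleton_iff]
      exact (Commute.self_pow g _).eq
    have h3 := (normalizer (P : Set G)).orderOf_dvd_natCard (centralizer_le_normalizer _ h2)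
    rw [hNc] at h3
    obtain ⟨k, hk⟩ := hg
    rw [hk] at h3 ⊢
    rcases (Nat.dvd_prime he).1 (Nat.dvd_of_mul_dvd_mul_left hp.out.pos h3) with h | h
    · exact ⟨P, h2, Or.inl (by rw [h, mul_one])⟩
    · exact ⟨P, h2, Or.inr (by rw [h])⟩
  intro g hg
  obtain ⟨P, h1, h2 | h2⟩ := key g hg
  · exact h2
  exfalso
  have hPc := H36.card_sylow_eq_prime P hG hm
  have h3 : Nat.card (centralizer (P : Set G)) = p * e := by
    apply Nat.dvd_antisymm
    · rw [← hNc P]; exact card_dvd_of_le (centralizer_le_normalizer _)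
    · rw [← h2]; exact (centralizer (P : Set G)).orderOf_dvd_natCard h1
  have h4 := H36.card_singular_ge P hPc h3
  have h5 := (H36.card_subtype_mono fun g hg => (key g hg).choose_spec.2).trans
    (H36.card_subtype_or_le _ _)
  rw [H36.card_orderOf_eq_prime P hPc] at h5
  obtain ⟨e', rfl⟩ := Nat.exists_eq_add_one_of_ne_zero he.ne_zero
  rw [Nat.add_sub_cancel] at hc
  nlinarith

/-- simplicity from the set of the numbers of elements of given order -/
theorem simple_of_nse {m e n : ℕ} (hG : Nat.card G = p * m) (hm : ¬ p ∣ m) (he : e.Prime)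
    (hne : n * e = m) (hme : m ≠ e)
    (hq : ∀ q a : ℕ, q.Prime → 0 < a → q ^ a ∣ p * m → q ^ a % p ≠ 1) (L : List ℕ)
    (hL : ∀ k, Nat.card {g : G // orderOf g = k} ∈ L)
    (h1 : ∀ c ∈ L, c % p = p - 1 → (p - 1) ∣ c → c = n * (p - 1))
    (h2 : ∀ c ∈ L, c < n * (p - 1) * (e - 1)) : IsSimpleGroup G := by
  obtain ⟨P⟩ := (inferInstance : Nonempty (Sylow p G))
  have h3 := H36.card_orderOf_eq_prime P (H36.card_sylow_eq_prime P hG hm)
  have h4 := h1 _ (hL p) (by
    rw [h3, Nat.mul_mod, H36.card_sylow_mod, one_mul, Nat.mod_mod,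
      Nat.mod_eq_of_lt (Nat.sub_lt hp.out.pos one_pos)]) (h3 ▸ Dvd.intro_left _ rfl)
  rw [h3] at h4
  have h5 := Nat.eq_of_mul_eq_mul_right (Nat.sub_pos_of_lt hp.out.one_lt) h4
  exact simple_of_isolated hG hm (isolated_of_count hG hm he (h5 ▸ hne) (h5 ▸ h2 _ (hL _)))
    (hG ▸ hq) he (h5 ▸ hne) hme

theorem mem_of_nse_eq {M : Type*} [Group M]
    (h : {c : ℕ | 0 < c ∧ ∃ n : ℕ, c = Nat.card {g : G // orderOf g = n}} =
      {c : ℕ | 0 < c ∧ ∃ n : ℕ, c = Nat.card {g : M // orderOf g = n}}) {L : List ℕ} (h0 : 0 ∈ L)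
    (hL : ∀ k, Nat.card {g : M // orderOf g = k} ∈ L) (k : ℕ) :
    Nat.card {g : G // orderOf g = k} ∈ L := by
  rcases Nat.eq_zero_or_pos (Nat.card {g : G // orderOf g = k}) with h1 | h1
  · rwa [h1]
  · obtain ⟨-, n, hn⟩ := h.le ⟨h1, k, rfl⟩
    exact hn ▸ hL n

end

theorem prime_pow_mod_ne {N p : ℕ} (l : List ℕ) (hN : N ≠ 0)
    (h1 : ∀ q, q.Prime → q ∣ N → q ∈ l)
    (h2 : ∀ q ∈ l, ∀ a < 12, q ^ (a + 1) ∣ N → q ^ (a + 1) % p ≠ 1) (h3 : ∀ q ∈ l, ¬ q ^ 13 ∣ N) :
    ∀ q a : ℕ, q.Prime → 0 < a → q ^ a ∣ N → q ^ a % p ≠ 1 := by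
  intro q a hq ha hd
  have hl := h1 q hq ((dvd_pow_self q ha.ne').trans hd)
  obtain ⟨a, rfl⟩ := Nat.exists_eq_add_one_of_ne_zero ha.ne'
  refine h2 q hl a ?_ hd
  by_contra hc
  exact h3 q hl ((pow_dvd_pow q (by omega)).trans hd)

open H14 in
/-- the numbers of elements of given order from a list of classes -/
theorem nse_of_classList {α : Type*} {n k M : ℕ} {E : Enc α n k M} {K : Subgroup (Equiv.Perm α)}
    {cl : List Cls} (h : E.ClassList K cl) {N fuel : ℕ} (hN : Nat.card K = N) {L : List ℕ}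
    (h0 : 0 ∈ L) (h1 : ∀ c ∈ cl, ordN k M n c.X fuel ≠ 0)
    (h2 : ∀ c ∈ cl, ((cl.filter fun d => Nat.beq (ordN k M n d.X fuel) (ordN k M n c.X fuel)).map
      fun d => N / d.c).sum ∈ L) (j : ℕ) : Nat.card {g : K // orderOf g = j} ∈ L := by
  have e : Nat.card {g : K // orderOf g = j} = {g | g ∈ K ∧ orderOf g = j}.ncard :=
    Nat.card_congr ⟨fun g => ⟨g.1, g.1.2, by rw [orderOf_coe]; exact g.2⟩,
      fun g => ⟨⟨g.1, g.2.1⟩, by rw [← orderOf_coe]; exact g.2.2⟩, fun _ => rfl, fun _ => rfl⟩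
  rw [e, h.ncard_eq (p := fun g => orderOf g = j) (fun g _ x _ hx => by
    rw [H36.orderOf_conj', hx]) (fun d => Nat.beq (ordN k M n d.X fuel) j) (fun c hc x _ hx => by
    rw [beq_iff, E.orderOf_eq_ordN x (hx ▸ h1 c hc), hx]), hN]
  by_cases hj : ∃ c ∈ cl, ordN k M n c.X fuel = j
  · obtain ⟨c, hc, rfl⟩ := hj
    exact h2 c hc
  · rw [List.filter_eq_nil_iff.2 fun c hc h3 => hj ⟨c, hc, beq_iff.1 h3⟩]
    exact h0

theorem prime_mem {N : ℕ} {l : List ℕ} (h : N ∣ l.prod ^ 12 ∧ ∀ r ∈ l, r.Prime) :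
    ∀ q, q.Prime → q ∣ N → q ∈ l := by
  intro q hq hd
  obtain ⟨r, hr, h1⟩ := (Prime.dvd_prod_iff hq.prime).1 (hq.dvd_of_dvd_pow (hd.trans h.1))
  rwa [(Nat.prime_dvd_prime_iff_eq hq (h.2 r hr)).1 h1]

theorem simple_of_nse_M11 {G : Type*} [Group G] [Finite G] (hc : Nat.card G = Nat.card Spor.M11)
    (h : {c : ℕ | 0 < c ∧ ∃ n : ℕ, c = Nat.card {g : G // orderOf g = n}} =
      {c : ℕ | 0 < c ∧ ∃ n : ℕ, c = Nat.card {g : Spor.M11 // orderOf g = n}}) : IsSimpleGroup G :=
  @simple_of_nse G _ _ 11 ⟨by norm_num⟩ 720 5 144 (hc.trans H14.card_M11) (by norm_num)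
    (by norm_num) rfl (by norm_num)
    (prime_pow_mod_ne [2, 3, 5, 11] (by norm_num) (prime_mem (by norm_num)) (by decide +kernel)
      (by decide +kernel))
    [0, 1, 165, 440, 990, 1320, 1440, 1584, 1980]
    (mem_of_nse_eq h (by simp) (nse_of_classList H14.m11_classes H14.card_M11 (fuel := 24) (by simp)
      (by decide +kernel) (by decide +kernel))) (by decide +kernel) (by decide +kernel)

theorem simple_of_nse_M12 {G : Type*} [Group G] [Finite G] (hc : Nat.card G = Nat.card Spor.M12)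
    (h : {c : ℕ | 0 < c ∧ ∃ n : ℕ, c = Nat.card {g : G // orderOf g = n}} =
      {c : ℕ | 0 < c ∧ ∃ n : ℕ, c = Nat.card {g : Spor.M12 // orderOf g = n}}) : IsSimpleGroup G :=
  @simple_of_nse G _ _ 11 ⟨by norm_num⟩ 8640 5 1728 (hc.trans H14.card_M12) (by norm_num)
    (by norm_num) rfl (by norm_num)
    (prime_pow_mod_ne [2, 3, 5, 11] (by norm_num) (prime_mem (by norm_num)) (by decide +kernel)
      (by decide +kernel))
    [0, 1, 891, 4400, 5940, 9504, 17280, 23760]
    (mem_of_nse_eq h (by simp) (nse_of_classList H14.m12_classes H14.card_M12 (fuel := 24) (by simp)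
      (by decide +kernel) (by decide +kernel))) (by decide +kernel) (by decide +kernel)

theorem simple_of_nse_M22 {G : Type*} [Group G] [Finite G] (hc : Nat.card G = Nat.card Spor.M22)
    (h : {c : ℕ | 0 < c ∧ ∃ n : ℕ, c = Nat.card {g : G // orderOf g = n}} =
      {c : ℕ | 0 < c ∧ ∃ n : ℕ, c = Nat.card {g : Spor.M22 // orderOf g = n}}) : IsSimpleGroup G :=
  @simple_of_nse G _ _ 11 ⟨by norm_num⟩ 40320 5 8064 (hc.trans H14.card_M22) (by norm_num)
    (by norm_num) rfl (by norm_num)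
    (prime_pow_mod_ne [2, 3, 5, 7, 11] (by norm_num) (prime_mem (by norm_num)) (by decide +kernel)
      (by decide +kernel))
    [0, 1, 1155, 12320, 36960, 41580, 55440, 80640, 88704, 126720]
    (mem_of_nse_eq h (by simp) (nse_of_classList H14.m22_classes H14.card_M22 (fuel := 24) (by simp)
      (by decide +kernel) (by decide +kernel))) (by decide +kernel) (by decide +kernel)

theorem simple_of_nse_M23 {G : Type*} [Group G] [Finite G] (hc : Nat.card G = Nat.card Spor.M23)
    (h : {c : ℕ | 0 < c ∧ ∃ n : ℕ, c = Nat.card {g : G // orderOf g = n}} =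
      {c : ℕ | 0 < c ∧ ∃ n : ℕ, c = Nat.card {g : Spor.M23 // orderOf g = n}}) : IsSimpleGroup G :=
  @simple_of_nse G _ _ 23 ⟨by norm_num⟩ 443520 11 40320 (hc.trans H14.card_M23) (by norm_num)
    (by norm_num) rfl (by norm_num)
    (prime_pow_mod_ne [2, 3, 5, 7, 11, 23] (by norm_num) (prime_mem (by norm_num)) (by decide +kernel)
      (by decide +kernel))
    [0, 1, 3795, 56672, 318780, 680064, 850080, 887040, 1275120, 1360128, 1457280, 1854720]
    (mem_of_nse_eq h (by simp) (nse_of_classList H14.m23_classes H14.card_M23 (fuel := 24) (by simp)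
      (by decide +kernel) (by decide +kernel))) (by decide +kernel) (by decide +kernel)

theorem simple_of_nse_M24 {G : Type*} [Group G] [Finite G] (hc : Nat.card G = Nat.card M24)
    (h : {c : ℕ | 0 < c ∧ ∃ n : ℕ, c = Nat.card {g : G // orderOf g = n}} =
      {c : ℕ | 0 < c ∧ ∃ n : ℕ, c = Nat.card {g : M24 // orderOf g = n}}) : IsSimpleGroup G :=
  @simple_of_nse G _ _ 23 ⟨by norm_num⟩ 10644480 11 967680 (hc.trans H14.card_M24) (by norm_num)
    (by norm_num) rfl (by norm_num)
    (prime_pow_mod_ne [2, 3, 5, 7, 11, 23] (by norm_num) (prime_mem (by norm_num)) (by decide +kernel)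
      (by decide +kernel))
    [0, 1, 43263, 712448, 4080384, 5100480, 11658240, 12241152, 15301440, 20401920, 21288960, 22256640, 23316480, 32643072, 34974720, 40803840]
    (mem_of_nse_eq h (by simp) (nse_of_classList H14.m24_classes H14.card_M24 (fuel := 24) (by simp)
      (by decide +kernel) (by decide +kernel))) (by decide +kernel) (by decide +kernel)

end Cfsg.Agent.H16
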